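import Cfsg.Agent.Chars.Basic
import Cfsg.Agent.Blocks.LocalRing
import Cfsg.Agent.CharTable.InvariantMatrix
import Mathlib.GroupTheory.ClassEquation
import Mathlib.RingTheory.Ideal.Quotient.Basic

/-!
# A p-group acting on a p'-group: invariant real characters and fixed real classes
-/

namespace CfsgLib.CharTable

open Cfsg CfsgLib.Chars MulAction

theorem exists_isPModular_ideal (p : ℕ) (hp : p.Prime) : ∃ M : Ideal AlgInt, IsPModular p M := by
  have hne : Ideal.span {(p : AlgInt)} ≠ ⊤ := by
    intro h
    obtain ⟨a, ha⟩ := Ideal.mem_span_singleton.1 ((Ideal.eq_top_iff_one _).1 h)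
    have h2 : IsIntegral ℤ (((1 : ℕ) : ℂ) / ((p : ℕ) : ℂ)) := by
      have he : ((1 : ℕ) : ℂ) / ((p : ℕ) : ℂ) = (a : ℂ) := by
        rw [div_eq_iff (Nat.cast_ne_zero.2 hp.ne_zero)]
        have := congrArg (Subtype.val : AlgInt → ℂ) ha
        push_cast at this
        simpa [mul_comm] using this
      rw [he]
      exact a.2
    exact hp.ne_one (Nat.dvd_one.1 (dvd_of_isIntegral_div hp.ne_zero h2))
  obtain ⟨M, hM, hle⟩ := Ideal.exists_le_maximal _ hne
  exact ⟨M, hp, hM, hle (Ideal.mem_span_singleton_self _)⟩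

variable {K : Type*} [Group K] [Finite K] {p : ℕ} [Fact p.Prime]
  {P : Type*} [Group P] (α : P →* MulAut K)

/-- The action on irreducible characters through automorphisms. -/
@[reducible] noncomputable def irrAction : MulAction P (IrrCharacter K) where
  smul x θ := irrEquiv (α x) θ
  one_smul θ := Subtype.ext (funext fun k => by
    show (θ : K → ℂ) ((α 1).symm k) = (θ : K → ℂ) k
    rw [map_one]; rfl)
  mul_smul x y θ := Subtype.ext (funext fun k => by
    show (θ : K → ℂ) ((α (x * y)).symm k) = (θ : K → ℂ) ((α y).symm ((α x).symm k))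
    rw [map_mul]; rfl)

/-- The action on classes through automorphisms. -/
@[reducible] noncomputable def classAction : MulAction P (ConjClasses K) where
  smul x c := ConjClasses.map ((α x).toMonoidHom) c
  one_smul c := by
    obtain ⟨k, rfl⟩ := ConjClasses.mk_surjective c
    show ConjClasses.mk (α 1 k) = ConjClasses.mk k
    rw [map_one]; rfl
  mul_smul x y c := by
    obtain ⟨k, rfl⟩ := ConjClasses.mk_surjective c
    show ConjClasses.mk (α (x * y) k) = ConjClasses.mk (α x (α y k))
    rw [map_mul]; rfl

/-- The class of inverses. -/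
noncomputable def invClass (c : ConjClasses K) : ConjClasses K :=
  ConjClasses.mk c.out⁻¹

omit [Finite K] in
theorem invClass_mk (k : K) : invClass (ConjClasses.mk k) = ConjClasses.mk k⁻¹ := by
  rw [invClass, ConjClasses.mk_eq_mk_iff_isConj]
  have h : IsConj (ConjClasses.mk k).out k :=
    ConjClasses.mk_eq_mk_iff_isConj.1 (Quotient.out_eq (ConjClasses.mk k))
  obtain ⟨c, hc⟩ := isConj_iff.1 h
  exact isConj_iff.2 ⟨c, by rw [← conj_inv, hc]⟩

omit [Finite K] in
theorem invClass_involutive : Function.Involutive (invClass (K := K)) := by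
  intro c
  obtain ⟨k, rfl⟩ := ConjClasses.mk_surjective c
  rw [invClass_mk, invClass_mk, inv_inv]

/-- The value of a character on a class. -/
noncomputable def classVal (θ : IrrCharacter K) (c : ConjClasses K) : AlgInt :=
  ⟨(θ : K → ℂ) c.out, isIntegral_apply (isCharacter_coe θ) _⟩

theorem classVal_mk (θ : IrrCharacter K) (k : K) :
    (classVal θ (ConjClasses.mk k) : ℂ) = (θ : K → ℂ) k :=
  eq_of_isConj (isClassFunction_coe θ)
    (ConjClasses.mk_eq_mk_iff_isConj.1 (Quotient.out_eq (ConjClasses.mk k)))

omit [Finite K] in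
theorem card_carrier_smul (x : P) (c : ConjClasses K) :
    Nat.card ((classAction α).smul x c).carrier = Nat.card c.carrier := by
  obtain ⟨k, rfl⟩ := ConjClasses.mk_surjective c
  refine (Nat.card_congr (Equiv.subtypeEquiv (α x).toEquiv fun y => ?_)).symm
  show y ∈ (ConjClasses.mk k).carrier ↔ α x y ∈ (ConjClasses.mk (α x k)).carrier
  rw [ConjClasses.mem_carrier_iff_mk_eq, ConjClasses.mem_carrier_iff_mk_eq,
    ConjClasses.mk_eq_mk_iff_isConj, ConjClasses.mk_eq_mk_iff_isConj]
  refine ⟨fun h => (α x).toMonoidHom.map_isConj h, fun h => ?_⟩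
  simpa using (α x).symm.toMonoidHom.map_isConj h

/-- The second inverse matrix: `|c| θ(c⁻¹) / |K|`, before reduction. -/
noncomputable def classWeight (θ : IrrCharacter K) (c : ConjClasses K) : AlgInt :=
  (Nat.card c.carrier : AlgInt) * classVal θ (invClass c)

theorem coe_classWeight (θ : IrrCharacter K) (k : K) :
    (classWeight θ (ConjClasses.mk k) : ℂ) =
      (Nat.card (ConjClasses.mk k).carrier : ℂ) * (θ : K → ℂ) k⁻¹ := by
  rw [classWeight, invClass_mk]
  push_cast
  rw [classVal_mk]

theorem sum_classVal_classWeight [Fintype (ConjClasses K)] [DecidableEq (IrrCharacter K)]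
    (θ ψ : IrrCharacter K) :
    ∑ c, classVal θ c * classWeight ψ c = if θ = ψ then (Nat.card K : AlgInt) else 0 := by
  classical
  have := Fintype.ofFinite K
  apply Subtype.ext
  have h := sum_mul_map_inv θ ψ
  rw [← Finset.sum_fiberwise (Finset.univ : Finset K) ConjClasses.mk] at h
  have hval : ∀ c : ConjClasses K,
      (∑ g ∈ Finset.univ.filter (fun g => ConjClasses.mk g = c),
        (θ : K → ℂ) g * (ψ : K → ℂ) g⁻¹) = ((classVal θ c * classWeight ψ c : AlgInt) : ℂ) := by
    intro c
    obtain ⟨k, rfl⟩ := ConjClasses.mk_surjective c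
    rw [Finset.sum_congr rfl (g := fun _ => (θ : K → ℂ) k * (ψ : K → ℂ) k⁻¹) (fun g hg => by
      have hgk := ConjClasses.mk_eq_mk_iff_isConj.1 (Finset.mem_filter.1 hg).2
      obtain ⟨d, hd⟩ := isConj_iff.1 hgk
      rw [eq_of_isConj (isClassFunction_coe θ) hgk,
        eq_of_isConj (isClassFunction_coe ψ) (isConj_iff.2 ⟨d, by rw [← conj_inv, hd]⟩)]),
      Finset.sum_const, nsmul_eq_mul]
    push_cast
    rw [classVal_mk, coe_classWeight]
    have hc : ((Finset.univ.filter fun g : K => ConjClasses.mk g = ConjClasses.mk k).card : ℂ) =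
        Nat.card (ConjClasses.mk k).carrier := by
      rw [← Fintype.card_subtype, ← Nat.card_eq_fintype_card]
      exact_mod_cast Nat.card_congr
        (Equiv.subtypeEquivRight fun g => ConjClasses.mem_carrier_iff_mk_eq.symm)
    rw [hc]
    ring
  rw [Finset.sum_congr rfl (fun c _ => hval c)] at h
  push_cast
  push_cast at h
  rw [h]
  split_ifs <;> simp

theorem sum_classWeight_classVal [Fintype (IrrCharacter K)] [DecidableEq (ConjClasses K)]
    (c d : ConjClasses K) :
    ∑ θ, classWeight θ c * classVal θ d = if c = d then (Nat.card K : AlgInt) else 0 := by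
  classical
  obtain ⟨k, rfl⟩ := ConjClasses.mk_surjective c
  obtain ⟨l, rfl⟩ := ConjClasses.mk_surjective d
  apply Subtype.ext
  push_cast
  simp only [coe_classWeight, classVal_mk, mul_assoc, ← Finset.mul_sum]
  have h : ∑ θ : IrrCharacter K, (θ : K → ℂ) k⁻¹ * (θ : K → ℂ) l =
      if IsConj l k then (Nat.card (Subgroup.centralizer ({l} : Set K)) : ℂ) else 0 := by
    rw [← sum_irr_mul_map_inv l k]
    exact Finset.sum_congr (by ext; simp) fun θ _ => mul_comm _ _
  rw [h]
  simp only [ConjClasses.mk_eq_mk_iff_isConj]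
  by_cases hc : IsConj k l
  · rw [if_pos hc.symm, if_pos hc, ← ConjClasses.mk_eq_mk_iff_isConj.2 hc.symm]
    rw [← Nat.cast_mul, card_carrier_mul_card_centralizer]
    simp
  · rw [if_neg (fun h' => hc h'.symm), if_neg hc]
    simp

/-- The main count. -/
theorem card_real_fixed_eq (hP : IsPGroup p P) (hK : ¬ p ∣ Nat.card K) :
    Nat.card {θ : IrrCharacter K // (∀ x : P, irrEquiv (α x) θ = θ) ∧ conjChar θ = θ} =
      Nat.card {c : ConjClasses K // (∀ x : P, ConjClasses.map ((α x).toMonoidHom) c = c) ∧
        invClass c = c} := by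
  classical
  let _ := irrAction α
  let _ := classAction α
  have := Fintype.ofFinite (ConjClasses K)
  obtain ⟨M, hMp⟩ := exists_isPModular_ideal p Fact.out
  have := hMp.2.1
  let _ : Field (AlgInt ⧸ M) := Ideal.Quotient.field M
  let q := Ideal.Quotient.mk M
  have hq : ∀ n : ℕ, q (n : AlgInt) = 0 ↔ p ∣ n := fun n =>
    Ideal.Quotient.eq_zero_iff_mem.trans (CfsgLib.Blocks.natCast_mem_iff_dvd hMp n)
  have : CharP (AlgInt ⧸ M) p := ⟨fun n => by rw [← map_natCast q]; exact hq n⟩
  have hK0 : q (Nat.card K : AlgInt) ≠ 0 := fun h => hK ((hq _).1 h)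
  set A : IrrCharacter K → ConjClasses K → AlgInt ⧸ M := fun θ c => q (classVal θ c) with hA
  set B : ConjClasses K → IrrCharacter K → AlgInt ⧸ M :=
    fun c θ => q (classWeight θ c) / q (Nat.card K : AlgInt) with hB
  have hval : ∀ (x : P) (θ : IrrCharacter K) (c : ConjClasses K),
      classVal (x • θ) (x • c) = classVal θ c := by
    intro x θ c
    obtain ⟨k, rfl⟩ := ConjClasses.mk_surjective c
    apply Subtype.ext
    show (classVal (irrEquiv (α x) θ) (ConjClasses.mk (α x k)) : ℂ) = _
    rw [classVal_mk, classVal_mk, irrEquiv_apply, MulEquiv.symm_apply_apply]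
  have hinv : ∀ (x : P) (c : ConjClasses K), invClass (x • c) = x • invClass c := by
    intro x c
    obtain ⟨k, rfl⟩ := ConjClasses.mk_surjective c
    show invClass (ConjClasses.mk (α x k)) = x • invClass (ConjClasses.mk k)
    rw [invClass_mk, invClass_mk]
    show _ = ConjClasses.mk (α x k⁻¹)
    rw [map_inv]
  have hwt : ∀ (x : P) (θ : IrrCharacter K) (c : ConjClasses K),
      classWeight (x • θ) (x • c) = classWeight θ c := by
    intro x θ c
    rw [classWeight, classWeight, hinv, hval]
    rw [show Nat.card (x • c).carrier = Nat.card c.carrier from card_carrier_smul α x c]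
  have hconj : ∀ (θ : IrrCharacter K) (c : ConjClasses K), classVal (conjChar θ) (invClass c) = classVal θ c := by
    intro θ c
    obtain ⟨k, rfl⟩ := ConjClasses.mk_surjective c
    apply Subtype.ext
    rw [invClass_mk, classVal_mk, classVal_mk, conjChar_apply,
      map_inv_eq_conj (isCharacter_coe θ), Complex.conj_conj]
  have hcard : ∀ c : ConjClasses K, Nat.card (invClass c).carrier = Nat.card c.carrier := by
    intro c
    obtain ⟨k, rfl⟩ := ConjClasses.mk_surjective c
    rw [invClass_mk]
    refine Nat.card_congr (Equiv.subtypeEquiv (Equiv.inv K) fun y => ?_)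
    show y ∈ _ ↔ y⁻¹ ∈ _
    rw [ConjClasses.mem_carrier_iff_mk_eq, ConjClasses.mem_carrier_iff_mk_eq,
      ← invClass_mk y]
    refine ⟨fun h => by rw [h, invClass_mk, inv_inv], fun h => ?_⟩
    rw [← invClass_mk, ← h, invClass_involutive]
  have h := card_fixedPoints_eq_of_invertible (k := AlgInt ⧸ M) hP A B
    (fun x θ c => by simp only [hA, hval]) (fun x c θ => by simp only [hB, hwt])
    (fun θ ψ => by
      simp only [hA, hB, ← mul_div_assoc, ← Finset.sum_div, ← map_mul, ← map_sum,
        sum_classVal_classWeight]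
      split_ifs
      · exact div_self hK0
      · simp)
    (fun c d => by
      simp only [hA, hB, div_mul_eq_mul_div, ← Finset.sum_div, ← map_mul, ← map_sum,
        sum_classWeight_classVal]
      split_ifs
      · exact div_self hK0
      · simp)
    (σ := conjChar) (τ := invClass) conjChar_conjChar invClass_involutive
    (fun x θ => Subtype.ext (funext fun k => rfl)) hinv
    (fun θ c => by simp only [hA, hconj])
    (fun c θ => by
      simp only [hB, classWeight, hcard]
      rw [hconj])
  exact h

/-- A class fixed by the `p`-group contains a fixed element. -/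
theorem exists_fixed_of_fixed_class (hP : IsPGroup p P) (hK : ¬ p ∣ Nat.card K) (k : K)
    (hfix : ∀ x : P, IsConj k (α x k)) : ∃ k' : K, IsConj k k' ∧ ∀ x : P, α x k' = k' := by
  have hmap : ∀ (x : P) (y : K), IsConj k y → IsConj k (α x y) := fun x y h =>
    (hfix x).trans ((α x).toMonoidHom.map_isConj h)
  let _ : MulAction P (ConjClasses.mk k).carrier :=
    { smul := fun x y => ⟨α x y, by
        rw [ConjClasses.mem_carrier_iff_mk_eq, ConjClasses.mk_eq_mk_iff_isConj]
        exact (hmap x y (ConjClasses.mk_eq_mk_iff_isConj.1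
          (ConjClasses.mem_carrier_iff_mk_eq.1 y.2)).symm).symm⟩
      one_smul := fun y => Subtype.ext (by
        show α 1 (y : K) = y
        rw [map_one]; rfl)
      mul_smul := fun x x' y => Subtype.ext (by
        show α (x * x') (y : K) = α x (α x' y)
        rw [map_mul]; rfl) }
  have hd : ¬ p ∣ Nat.card (ConjClasses.mk k).carrier := fun h =>
    hK (h.trans ⟨_, (card_carrier_mul_card_centralizer k).symm⟩)
  obtain ⟨y, hy⟩ := hP.nonempty_fixed_point_of_prime_not_dvd_card _ hd
  exact ⟨y, (ConjClasses.mk_eq_mk_iff_isConj.1 (ConjClasses.mem_carrier_iff_mk_eq.1 y.2)).symm,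
    fun x => congrArg Subtype.val (hy x)⟩

end CfsgLib.CharTable
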