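import Cfsg.Agent.Chars.Induced.Rep
import Cfsg.Agent.Chars.Induced.Basic
import Cfsg.Agent.Chars.FrobSchur.Real

/-!
# A character induced from a real representation is afforded by a real representation
-/

set_option autoImplicit false

namespace CfsgLib.CharTable

open Cfsg CfsgLib.Chars.Induced

universe u

variable {G : Type u} [Group G] [Fintype G] (H : Subgroup G)

omit [Fintype G] in
theorem indMat_map_re {n : ℕ} (A : H →* Matrix (Fin n) (Fin n) ℝ) (g : G) :
    ((indMat H ((Complex.ofRealHom.mapMatrix).toMonoidHom.comp A) g).map Complex.re).map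
      Complex.ofRealHom = indMat H ((Complex.ofRealHom.mapMatrix).toMonoidHom.comp A) g := by
  ext i j
  simp only [Matrix.map_apply, indMat, extendMat]
  split_ifs <;> simp

/-- The trace of the induced matrices is the induced function of the trace. -/
theorem trace_indMat [Fintype (G ⧸ H)] {n : ℕ} (A : H →* Matrix (Fin n) (Fin n) ℂ) (g : G) :
    Matrix.trace (indMat H A g) = indFun H (fun h => Matrix.trace (A h)) g := by
  classical
  set θ : H → ℂ := fun h => Matrix.trace (A h) with hθ
  have hf : ∀ g : G, Matrix.trace (extendMat H A g) = extendByZero H θ g := by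
    intro g
    by_cases hg : g ∈ H
    · simp only [extendMat, dif_pos hg, extendByZero_mem _ hg, hθ]
    · simp [extendMat, dif_neg hg, extendByZero_notMem _ hg]
  have hθc : IsClassFunction H θ := fun a x => by
    simp only [hθ]
    rw [map_mul, Matrix.trace_mul_comm, ← map_mul, inv_mul_cancel_left]
  have h1 : Matrix.trace (indMat H A g) = ∑ d : G ⧸ H, extendByZero H θ (d.out⁻¹ * g * d.out) := by
    simp only [← hf, Matrix.trace, Matrix.diag]
    rw [Fintype.sum_prod_type]
    rfl
  rw [h1]
  simp only [indFun]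
  have h2 : ∑ x : G, extendByZero H θ (x⁻¹ * g * x) =
      ∑ p : (G ⧸ H) × H, extendByZero H θ (p.1.out⁻¹ * g * p.1.out) := by
    symm
    refine Fintype.sum_bijective (fun p : (G ⧸ H) × H => p.1.out * (p.2 : G)) ⟨?_, ?_⟩ _ _ ?_
    · rintro ⟨d, h⟩ ⟨d', h'⟩ he
      have hd : d = d' := by
        have := congrArg (QuotientGroup.mk : G → G ⧸ H) he
        simpa [QuotientGroup.mk_mul_of_mem] using this
      subst hd
      simpa using he
    · intro x
      refine ⟨(QuotientGroup.mk x, ⟨(QuotientGroup.mk x : G ⧸ H).out⁻¹ * x, ?_⟩), by simp⟩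
      rw [← QuotientGroup.eq, QuotientGroup.out_eq']
    · rintro ⟨d, h⟩
      simpa [mul_assoc] using (extendByZero_conj hθc h⁻¹ (d.out⁻¹ * g * d.out)).symm
  rw [h2, Fintype.sum_prod_type, Finset.mul_sum]
  refine Finset.sum_congr rfl fun d _ => ?_
  dsimp only
  rw [Finset.sum_const, Finset.card_univ, nsmul_eq_mul, ← Nat.card_eq_fintype_card, ← mul_assoc,
    inv_mul_cancel₀ (card_subgroup_ne_zero H), one_mul]

/-- An irreducible character induced from one of indicator one has indicator one. -/
theorem indicator_indFun_eq_one [Fintype H] (ψ : IrrCharacter H)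
    (h1 : FrobSchur.indicator (ψ : H → ℂ) = 1) (hirr : IsIrrCharacter G (indFun H (ψ : H → ℂ))) :
    FrobSchur.indicator (indFun H (ψ : H → ℂ)) = 1 := by
  classical
  obtain ⟨n, ρ, hρ, hψ⟩ := ψ.2
  obtain ⟨N, τ, hτ, hχ⟩ := hirr
  rw [← hψ] at h1
  obtain ⟨m, σ, hσ⟩ := FrobSchur.exists_real_rep ρ hρ h1
  let A : H →* Matrix (Fin m) (Fin m) ℝ :=
    (LinearMap.toMatrixAlgEquiv' (R := ℝ) (n := Fin m)).toMulEquiv.toMonoidHom.comp σ
  let A' : H →* Matrix (Fin m) (Fin m) ℂ := (Complex.ofRealHom.mapMatrix).toMonoidHom.comp A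
  have htrA : ∀ h, Matrix.trace (A' h) = (ψ : H → ℂ) h := by
    intro h
    rw [← hψ, ← hσ h, LinearMap.trace_eq_matrix_trace ℝ (Pi.basisFun ℝ (Fin m))]
    exact (AddMonoidHom.map_trace Complex.ofRealHom.toAddMonoidHom
      (LinearMap.toMatrix' (σ h))).symm
  have : Fintype (G ⧸ H) := Fintype.ofFinite _
  let R : G →* Matrix ((G ⧸ H) × Fin m) ((G ⧸ H) × Fin m) ℝ :=
    { toFun := fun g => (indMat H A' g).map Complex.re
      map_one' := by
        apply Matrix.map_injective Complex.ofReal_injective
        show ((indMat H A' 1).map Complex.re).map Complex.ofRealHom = (1 : Matrix _ _ ℝ).map _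
        rw [indMat_map_re, indMat_one, Matrix.map_one _ Complex.ofReal_zero Complex.ofReal_one]
      map_mul' := fun a b => by
        apply Matrix.map_injective Complex.ofReal_injective
        show ((indMat H A' (a * b)).map Complex.re).map Complex.ofRealHom =
          (_ * _ : Matrix _ _ ℝ).map Complex.ofRealHom
        rw [indMat_map_re, indMat_mul, Matrix.map_mul, indMat_map_re, indMat_map_re] }
  let e := Fintype.equivFin ((G ⧸ H) × Fin m)
  let T : Representation ℝ G (Fin (Fintype.card ((G ⧸ H) × Fin m)) → ℝ) :=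
    ((Matrix.toLinAlgEquiv' (R := ℝ)).toMulEquiv.toMonoidHom.comp
      (Matrix.reindexAlgEquiv ℝ ℝ e).toMulEquiv.toMonoidHom).comp R
  rw [← hχ]
  refine FrobSchur.indicator_eq_one_of_real_rep τ hτ T fun g => ?_
  have hT : LinearMap.trace ℝ _ (T g) = Matrix.trace (R g) := by
    show LinearMap.trace ℝ _ (Matrix.toLin' (Matrix.reindex e e (R g))) = _
    rw [Matrix.trace_toLin'_eq]
    exact Fintype.sum_equiv e.symm _ _ fun i => rfl
  rw [hT, hχ]
  have htr : ((Matrix.trace (R g) : ℝ) : ℂ) = Matrix.trace (indMat H A' g) := by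
    conv_rhs => rw [← indMat_map_re]
    exact AddMonoidHom.map_trace Complex.ofRealHom.toAddMonoidHom (R g)
  rw [htr, trace_indMat, funext htrA]

end CfsgLib.CharTable
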