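import Mathlib.RepresentationTheory.Maschke
import Mathlib.RepresentationTheory.Semisimple
import Mathlib.RepresentationTheory.Character
import Mathlib.LinearAlgebra.Trace
import Mathlib.Analysis.Complex.Basic
import Mathlib.GroupTheory.Index

/-!
# Representation lemmas: kernels from traces, constituents of degree prime to p
-/

namespace CfsgLib.CharTable

open Representation

/-- If the trace at every power of `g` is the dimension, then `g` acts trivially. -/
theorem apply_eq_one_of_trace_pow {G : Type*} [Group G] [Finite G] {V : Type*} [AddCommGroup V]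
    [Module ℂ V] [FiniteDimensional ℂ V] (ρ : Representation ℂ G V) (g : G)
    (h : ∀ i : ℕ, LinearMap.trace ℂ V (ρ (g ^ i)) = Module.finrank ℂ V) : ρ g = 1 := by
  set n := orderOf g with hn
  have hn0 : 0 < n := orderOf_pos g
  have hnC : (n : ℂ) ≠ 0 := by exact_mod_cast hn0.ne'
  set T : Module.End ℂ V := (n : ℂ)⁻¹ • ∑ i ∈ Finset.range n, ρ (g ^ i) with hT
  have hgT : ρ g * T = T := by
    rw [hT, mul_smul_comm]
    congr 1
    rw [Finset.mul_sum]
    simp only [← map_mul, ← pow_succ']
    have h1 := Finset.sum_range_succ' (fun i => ρ (g ^ i)) n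
    rw [Finset.sum_range_succ, pow_orderOf_eq_one, pow_zero] at h1
    exact (add_right_cancel h1).symm
  have hgiT : ∀ i, ρ (g ^ i) * T = T := by
    intro i
    induction i with
    | zero => simp
    | succ i ih => rw [pow_succ, map_mul, mul_assoc, hgT, ih]
  have hTT : T * T = T := by
    conv_lhs => arg 1; rw [hT]
    rw [smul_mul_assoc, Finset.sum_mul, Finset.sum_congr rfl (fun i _ => hgiT i), Finset.sum_const,
      Finset.card_range, ← Nat.cast_smul_eq_nsmul ℂ, smul_smul, inv_mul_cancel₀ hnC, one_smul]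
  have hP : LinearMap.IsProj (LinearMap.range T) T :=
    ⟨fun x => LinearMap.mem_range_self T x, fun x hx => by
      obtain ⟨y, rfl⟩ := hx
      exact LinearMap.congr_fun hTT y⟩
  have htr := hP.trace
  rw [hT, map_smul, map_sum, Finset.sum_congr rfl (fun i _ => h i), Finset.sum_const,
    Finset.card_range, nsmul_eq_mul, smul_eq_mul, ← mul_assoc, inv_mul_cancel₀ hnC, one_mul,
    ← hT] at htr
  have htop : LinearMap.range T = ⊤ :=
    Submodule.eq_top_of_finrank_eq (by exact_mod_cast htr.symm)
  ext x
  obtain ⟨y, rfl⟩ : x ∈ LinearMap.range T := htop ▸ Submodule.mem_top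
  exact LinearMap.congr_fun hgT y

/-- An element at which a representation is trivial has the dimension as trace. -/
theorem trace_pow_of_apply_eq_one {G : Type*} [Monoid G] {V : Type*} [AddCommGroup V]
    [Module ℂ V] [FiniteDimensional ℂ V] (ρ : Representation ℂ G V) {g : G} (h : ρ g = 1)
    (i : ℕ) : LinearMap.trace ℂ V (ρ (g ^ i)) = Module.finrank ℂ V := by
  rw [map_pow, h, one_pow, LinearMap.trace_one]

/-- A representation conjugated by a linear equivalence. -/
noncomputable def transportRep {k G V W : Type*} [CommSemiring k] [Monoid G] [AddCommMonoid V]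
    [Module k V] [AddCommMonoid W] [Module k W] (e : V ≃ₗ[k] W) (σ : Representation k G V) :
    Representation k G W where
  toFun g := e.conj (σ g)
  map_one' := by ext; simp
  map_mul' a b := by ext; simp

/-- Conjugating by a linear equivalence keeps irreducibility. -/
theorem transportRep_isIrreducible {k G V W : Type*} [Field k] [Monoid G] [AddCommGroup V]
    [Module k V] [AddCommGroup W] [Module k W] (e : V ≃ₗ[k] W) (σ : Representation k G V)
    [σ.IsIrreducible] : (transportRep e σ).IsIrreducible := by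
  let E : Subrepresentation (transportRep e σ) ≃o Subrepresentation σ :=
    { toFun := fun U => ⟨U.toSubmodule.comap (e : V →ₗ[k] W), fun g v hv => by
        have := U.apply_mem_toSubmodule g (show e v ∈ U.toSubmodule from hv)
        simpa [transportRep] using this⟩
      invFun := fun U => ⟨U.toSubmodule.comap (e.symm : W →ₗ[k] V), fun g w hw => by
        have := U.apply_mem_toSubmodule g (show e.symm w ∈ U.toSubmodule from hw)
        simpa [transportRep] using this⟩
      left_inv := fun U => Subrepresentation.toSubmodule_injective (by ext; simp)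
      right_inv := fun U => Subrepresentation.toSubmodule_injective (by ext; simp)
      map_rel_iff' := by
        intro U U'
        constructor
        · intro h w hw
          have h1 := @h (e.symm w) (show e (e.symm w) ∈ U.toSubmodule by
            rw [e.apply_symm_apply]; exact hw)
          replace h1 : e (e.symm w) ∈ U'.toSubmodule := h1
          rw [e.apply_symm_apply] at h1
          exact h1
        · exact fun h v hv => h hv }
  exact E.isSimpleOrder

/-- A representation of dimension prime to `p` maps onto an irreducible one of such dimension. -/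
theorem exists_irreducible_quotient {G : Type*} [Group G] [Finite G] {p : ℕ} :
    ∀ {V : Type*} [AddCommGroup V] [Module ℂ V] [FiniteDimensional ℂ V]
      (σ : Representation ℂ G V), ¬ p ∣ Module.finrank ℂ V →
      ∃ (n : ℕ) (τ : Representation ℂ G (Fin n → ℂ)) (f : V →ₗ[ℂ] (Fin n → ℂ)),
        τ.IsIrreducible ∧ ¬ p ∣ n ∧ Function.Surjective f ∧ ∀ g x, f (σ g x) = τ g (f x) := by
  intro V _ _ _ σ hd
  induction hm : Module.finrank ℂ V using Nat.strong_induction_on generalizing V with
  | _ m ih =>
  have : NeZero ((Nat.card G : ℕ) : ℂ) := ⟨by exact_mod_cast Nat.card_pos.ne'⟩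
  by_cases hirr : σ.IsIrreducible
  · let e : V ≃ₗ[ℂ] (Fin m → ℂ) := LinearEquiv.ofFinrankEq _ _ (by simp [hm])
    exact ⟨m, transportRep e σ, e, transportRep_isIrreducible e σ, hm ▸ hd, e.surjective,
      fun g x => by simp [transportRep]⟩
  · have hnt : Nontrivial V := by
      apply Module.nontrivial_of_finrank_pos (R := ℂ)
      by_contra h0
      rw [not_lt, Nat.le_zero] at h0
      exact hd (h0 ▸ dvd_zero p)
    have : Nontrivial (Subrepresentation σ) := by
      refine ⟨⊥, ⊤, fun h => ?_⟩
      exact bot_ne_top (α := Submodule ℂ V) (congrArg Subrepresentation.toSubmodule h)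
    obtain ⟨W, hW⟩ : ∃ W : Subrepresentation σ, W ≠ ⊥ ∧ W ≠ ⊤ := by
      by_contra hc
      push Not at hc
      exact hirr ⟨fun W => or_iff_not_imp_left.2 (hc W)⟩
    obtain ⟨W', hW'⟩ := exists_isCompl W
    have hc : IsCompl W.toSubmodule W'.toSubmodule := by
      refine ⟨disjoint_iff.2 ?_, codisjoint_iff.2 ?_⟩
      · exact congrArg Subrepresentation.toSubmodule hW'.inf_eq_bot
      · exact congrArg Subrepresentation.toSubmodule hW'.sup_eq_top
    have main : ∀ (A B : Subrepresentation σ), IsCompl A.toSubmodule B.toSubmodule →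
        B.toSubmodule ≠ ⊥ → ¬ p ∣ Module.finrank ℂ A.toSubmodule →
        ∃ (n : ℕ) (τ : Representation ℂ G (Fin n → ℂ)) (f : V →ₗ[ℂ] (Fin n → ℂ)),
          τ.IsIrreducible ∧ ¬ p ∣ n ∧ Function.Surjective f ∧ ∀ g x, f (σ g x) = τ g (f x) := by
      intro A B hAB hB hA
      have hlt : Module.finrank ℂ A.toSubmodule < m := by
        rw [← hm, ← Submodule.finrank_add_eq_of_isCompl hAB]
        have : 0 < Module.finrank ℂ B.toSubmodule :=
          Nat.pos_of_ne_zero (mt Submodule.finrank_eq_zero.1 hB)
        omega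
      obtain ⟨n, τ, f, h1, h2, h3, h4⟩ := ih _ hlt A.toRepresentation hA rfl
      refine ⟨n, τ, f ∘ₗ Submodule.projectionOnto _ _ hAB, h1, h2, ?_, fun g x => ?_⟩
      · exact h3.comp fun a => ⟨a, Submodule.projectionOnto_apply_left hAB a⟩
      · obtain ⟨a, b, rfl⟩ : ∃ (a : A.toSubmodule) (b : B.toSubmodule), (a : V) + b = x := by
          obtain ⟨a, ha, b, hb, h⟩ :=
            Submodule.mem_sup.1 (show x ∈ A.toSubmodule ⊔ B.toSubmodule by
              rw [hAB.sup_eq_top]; trivial)
          exact ⟨⟨a, ha⟩, ⟨b, hb⟩, h⟩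
        simp only [LinearMap.comp_apply, map_add]
        rw [show σ g (a : V) = ((A.toRepresentation g a : A.toSubmodule) : V) from rfl,
          show σ g (b : V) = ((B.toRepresentation g b : B.toSubmodule) : V) from rfl]
        simp only [Submodule.projectionOnto_apply_left, Submodule.projectionOnto_apply_right, h4,
          map_zero, add_zero]
    have hsum := Submodule.finrank_add_eq_of_isCompl hc
    have hbot : ∀ {U : Subrepresentation σ}, U ≠ ⊥ → U.toSubmodule ≠ ⊥ := fun hU h =>
      hU (Subrepresentation.toSubmodule_injective h)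
    have hW'bot : W' ≠ ⊥ := fun h => hW.2 (by simpa [h] using hW'.sup_eq_top)
    by_cases hpW : p ∣ Module.finrank ℂ W.toSubmodule
    · exact main W' W hc.symm (hbot hW.1) fun h => hd (hsum ▸ dvd_add hpW h)
    · exact main W W' hc (hbot hW'bot) hpW

/-- A linear character `ν` of a subgroup `H` of index prime to `p`, trivial on a normal
subgroup `D`, lies below an irreducible representation of degree prime to `p` trivial on `D`. -/
theorem exists_irreducible_above_linear {G : Type*} [Group G] [Finite G] {p : ℕ}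
    (H D : Subgroup G) [D.Normal] (hDH : D ≤ H) (hidx : ¬ p ∣ H.index) (ν : H →* ℂˣ)
    (hν : ∀ d : H, (d : G) ∈ D → ν d = 1) :
    ∃ (n : ℕ) (τ : Representation ℂ G (Fin n → ℂ)), τ.IsIrreducible ∧ ¬ p ∣ n ∧
      (∀ d ∈ D, τ d = 1) ∧
      ∃ w : Fin n → ℂ, w ≠ 0 ∧ ∀ h : H, τ (h : G) w = ((ν h : ℂˣ) : ℂ) • w := by
  classical
  let V : Submodule ℂ (G → ℂ) :=
    { carrier := {f | ∀ (x : G) (h : H), f (x * h) = ((ν h⁻¹ : ℂˣ) : ℂ) * f x}
      add_mem' := fun {a b} ha hb x h => by simp [ha x h, hb x h, mul_add]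
      zero_mem' := fun x h => by simp
      smul_mem' := fun c a ha x h => by simp [ha x h, mul_left_comm] }
  have hV : ∀ (f : V) (x : G) (h : H),
      (f : G → ℂ) (x * h) = ((ν h⁻¹ : ℂˣ) : ℂ) * (f : G → ℂ) x :=
    fun f => f.2
  let σ : Representation ℂ G V :=
    { toFun := fun g =>
        { toFun := fun f => ⟨fun x => (f : G → ℂ) (g⁻¹ * x), fun x h => by
            show (f : G → ℂ) (g⁻¹ * (x * h)) = _
            rw [← mul_assoc, hV f]⟩
          map_add' := fun f f' => rfl
          map_smul' := fun c f => rfl }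
      map_one' := by ext f x; simp
      map_mul' := fun a b => by ext f x; simp [mul_assoc] }
  have hσ : ∀ g (f : V) x, (σ g f : G → ℂ) x = (f : G → ℂ) (g⁻¹ * x) := fun g f x => rfl
  -- coordinates on the cosets
  have hrep : ∀ x : G, ((QuotientGroup.mk x : G ⧸ H).out)⁻¹ * x ∈ H := fun x =>
    QuotientGroup.eq.1 (QuotientGroup.out_eq' (QuotientGroup.mk x : G ⧸ H))
  let e : V ≃ₗ[ℂ] ((G ⧸ H) → ℂ) :=
    { toFun := fun f q => (f : G → ℂ) q.out
      map_add' := fun f f' => rfl
      map_smul' := fun c f => rfl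
      invFun := fun c => ⟨fun x => ((ν (⟨_, hrep x⟩ : H)⁻¹ : ℂˣ) : ℂ) * c (QuotientGroup.mk x),
        fun x h => by
          have hq : (QuotientGroup.mk (x * h) : G ⧸ H) = QuotientGroup.mk x :=
            QuotientGroup.mk_mul_of_mem x h.2
          have he : (⟨_, hrep (x * h)⟩ : H) = (⟨_, hrep x⟩ : H) * h :=
            Subtype.ext (by simp [hq, mul_assoc])
          show _ * c _ = _ * (_ * c _)
          rw [he, hq, mul_inv_rev, map_mul, Units.val_mul, mul_assoc]⟩
      left_inv := fun f => by
        ext x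
        show ((ν _ : ℂˣ) : ℂ) * (f : G → ℂ) (QuotientGroup.mk x : G ⧸ H).out = (f : G → ℂ) x
        rw [← hV f]
        exact congrArg _ (mul_inv_cancel_left _ x)
      right_inv := fun c => by
        ext q
        show ((ν _ : ℂˣ) : ℂ) * c _ = c q
        have he : (⟨_, hrep q.out⟩ : H) = 1 := Subtype.ext (by simp)
        rw [he]
        simp }
  have : FiniteDimensional ℂ V := e.symm.finiteDimensional
  have := Fintype.ofFinite (G ⧸ H)
  have hfin : Module.finrank ℂ V = H.index := by
    rw [e.finrank_eq, Module.finrank_fintype_fun_eq_card, ← Nat.card_eq_fintype_card]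
    rfl
  obtain ⟨n, τ, f, h1, h2, h3, h4⟩ := exists_irreducible_quotient σ (p := p) (hfin ▸ hidx)
  have hD : ∀ d ∈ D, σ d = 1 := by
    intro d hd
    ext v x
    rw [hσ]
    have hc : x⁻¹ * d⁻¹ * x ∈ D := by
      simpa using Subgroup.Normal.conj_mem ‹D.Normal› _ (D.inv_mem hd) x⁻¹
    have := hV v x ⟨_, hDH hc⟩
    rw [hν _ (D.inv_mem hc), Units.val_one, one_mul] at this
    simpa [mul_assoc] using this
  refine ⟨n, τ, h1, h2, fun d hd => ?_, ?_⟩
  · refine LinearMap.ext fun w => ?_
    obtain ⟨v, rfl⟩ := h3 w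
    rw [← h4, hD d hd]
    rfl
  let v : V := ⟨fun x => if hx : x ∈ H then ((ν (⟨x, hx⟩ : H)⁻¹ : ℂˣ) : ℂ) else 0, fun x h => by
    by_cases hx : x ∈ H
    · have hxh : x * h ∈ H := H.mul_mem hx h.2
      show dite _ _ _ = _ * dite _ _ _
      rw [dif_pos hxh, dif_pos hx, show (⟨x * h, hxh⟩ : H) = ⟨x, hx⟩ * h from rfl, mul_inv_rev,
        map_mul, Units.val_mul]
    · have hxh : x * h ∉ H := fun hc => hx ((H.mul_mem_cancel_right h.2).1 hc)
      show dite _ _ _ = _ * dite _ _ _
      rw [dif_neg hxh, dif_neg hx, mul_zero]⟩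
  have hv : ∀ x, (v : G → ℂ) x =
      if hx : x ∈ H then ((ν (⟨x, hx⟩ : H)⁻¹ : ℂˣ) : ℂ) else 0 := fun x => rfl
  have hval : ∀ h : H, σ (h : G) v = ((ν h : ℂˣ) : ℂ) • v := by
    intro h
    ext x
    rw [Submodule.coe_smul, Pi.smul_apply, smul_eq_mul, hσ, hv, hv]
    by_cases hx : x ∈ H
    · rw [dif_pos hx, dif_pos (H.mul_mem (H.inv_mem h.2) hx), ← Units.val_mul]
      congr 1
      rw [show (⟨(h : G)⁻¹ * x, H.mul_mem (H.inv_mem h.2) hx⟩ : H) = h⁻¹ * ⟨x, hx⟩ from rfl,
        mul_inv_rev, inv_inv, map_mul, mul_comm]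
    · rw [dif_neg hx, dif_neg (fun hc => hx ((H.mul_mem_cancel_left (H.inv_mem h.2)).1 hc)),
        mul_zero]
  refine ⟨f v, fun h0 => ?_, fun h => by rw [← h4, hval, map_smul]⟩
  -- the translates of `v` span the induced module, so its image cannot vanish
  have hv0 : ∀ w : V, f w = 0 := by
    intro w
    have hw : w = ∑ q : G ⧸ H, (w : G → ℂ) q.out • σ q.out v := by
      apply e.injective
      ext q
      rw [map_sum]
      simp only [Finset.sum_apply, map_smul, Pi.smul_apply, smul_eq_mul]
      show (w : G → ℂ) q.out = ∑ r : G ⧸ H, (w : G → ℂ) r.out * (σ r.out v : G → ℂ) q.out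
      rw [Finset.sum_eq_single q]
      · show _ = _ * dite _ _ _
        rw [dif_pos (by simp)]
        simp [show ∀ h, (⟨1, h⟩ : H) = 1 from fun _ => rfl]
      · intro r _ hr
        show _ * dite _ _ _ = 0
        rw [dif_neg, mul_zero]
        intro hmem
        exact hr (by
          rw [← QuotientGroup.out_eq' r, ← QuotientGroup.out_eq' q]
          exact QuotientGroup.eq.2 hmem)
      · simp
    rw [hw, map_sum]
    exact Finset.sum_eq_zero fun q _ => by rw [map_smul, h4, h0, map_zero, smul_zero]
  have hn : n ≠ 0 := fun h => h2 (h ▸ dvd_zero p)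
  obtain ⟨w, hw⟩ := h3 (fun _ => 1)
  have := congrFun ((hv0 w).symm.trans hw) ⟨0, Nat.pos_of_ne_zero hn⟩
  simp at this

end CfsgLib.CharTable
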